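import Cfsg.Agent.E7P.E81.Enu

/-!
# S5932, E81: the kernel checks, part 2 (helper30)
-/

set_option autoImplicit false
set_option maxRecDepth 100000
set_option Elab.async false

namespace Cfsg.Agent.E7P.E81

/-- a slice -/
def sl8 : List (ℕ × ℕ) :=
  [(2,1), (3,3), (1,7), (2,7), (7,3), (7,5), (9,4), (11,3), (14,1), (6,11), (15,2), (0,19), (5,14), (17,2)]

theorem run8 : sl8.all ch = true := by decide +kernel

/-- a slice -/
def sl9 : List (ℕ × ℕ) :=
  [(3,0), (4,2), (2,6), (3,6), (8,2), (8,4), (10,3), (12,2), (15,0), (7,10), (16,1), (1,18), (6,13), (18,1)]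

theorem run9 : sl9.all ch = true := by decide +kernel

/-- a slice -/
def sl10 : List (ℕ × ℕ) :=
  [(0,4), (2,3), (3,4), (6,3), (2,9), (1,11), (2,11), (3,11), (3,12), (3,13), (12,4), (1,17), (8,10), (9,10), (1,19),
  (11,9)]

theorem run10 : sl10.all ch = true := by decide +kernel

/-- a slice -/
def sl11 : List (ℕ × ℕ) :=
  [(1,3), (3,2), (4,3), (7,2), (3,8), (2,10), (3,10), (4,10), (4,11), (4,12), (13,3), (2,16), (9,9), (10,9), (2,18),
  (12,8)]

theorem run11 : sl11.all ch = true := by decide +kernel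

/-- a slice -/
def sl12 : List (ℕ × ℕ) :=
  [(2,2), (4,1), (5,2), (8,1), (4,7), (3,9), (4,9), (5,9), (5,10), (5,11), (14,2), (3,15), (10,8), (11,8), (3,17),
  (13,7)]

theorem run12 : sl12.all ch = true := by decide +kernel

/-- a slice -/
def sl13 : List (ℕ × ℕ) :=
  [(3,1), (5,0), (6,1), (9,0), (5,6), (4,8), (5,8), (6,8), (6,9), (6,10), (15,1), (4,14), (11,7), (12,7), (4,16),
  (14,6)]

theorem run13 : sl13.all ch = true := by decide +kernel

/-- a slice -/
def sl14 : List (ℕ × ℕ) :=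
  [(4,0), (0,6), (2,5), (7,1), (5,5), (10,1), (7,6), (9,5), (12,3), (4,13), (13,4), (17,1), (15,5)]

theorem run14 : sl14.all ch = true := by decide +kernel

/-- a slice -/
def sl15 : List (ℕ × ℕ) :=
  [(0,5), (1,4), (1,6), (6,2), (3,7), (8,3), (12,0), (8,6), (9,6), (16,0), (6,12), (3,16), (8,11), (0,20), (10,10)]

theorem run15 : sl15.all ch = true := by decide +kernel

end Cfsg.Agent.E7P.E81
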