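import Cfsg.Agent.E7P.E81.Run1
import Cfsg.Agent.E7P.E81.Run2
import Mathlib.Algebra.BigOperators.Ring.Finset
import Mathlib.Algebra.Order.BigOperators.Group.Finset

/-!
# S5932, E81: the certificates and the arithmetical statement (helper30)

* `em c r` : the exponent of the weight `r` at the point with code `c`; `ff k x` : the value of the cocharacter with code `k`;
* `wl b` : the exponents of the weights of `V_b`; `smb` : numbers with small lanes;
* `crt` : the certificates; `arith` : the result.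
-/

set_option autoImplicit false
set_option maxRecDepth 100000
set_option maxHeartbeats 200000
set_option exponentiation.threshold 100000

namespace Cfsg.Agent.E7P.E81

/-! ### small lanes -/

/-- all lanes are at most `c` -/
def smb (c : ℕ) : ℕ → ℕ → Bool
  | 0, Z => Nat.beq Z 0
  | J + 1, Z => Nat.ble (Z % 512) c && smb c J (Z / 512)

/-- the top bits of the lanes -/
def mk : ℕ → ℕ
  | 0 => 0
  | J + 1 => 256 + 512 * mk J

theorem smb_zero (c J : ℕ) : smb c J 0 = true := by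
  induction J with
  | zero => rfl
  | succ J ih => simpa [smb] using ih

theorem smb_add {c d : ℕ} (h : c + d < 512) (J : ℕ) : ∀ {Y Z : ℕ}, smb c J Y = true → smb d J Z = true →
    smb (c + d) J (Y + Z) = true := by
  induction J with
  | zero =>
    intro Y Z h1 h2
    simp only [smb, Nat.beq_eq] at h1 h2 ⊢
    omega
  | succ J ih =>
    intro Y Z h1 h2
    simp only [smb, Bool.and_eq_true, Nat.ble_eq] at h1 h2 ⊢
    refine ⟨by omega, ?_⟩
    rw [show (Y + Z) / 512 = Y / 512 + Z / 512 by omega]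
    exact ih h1.2 h2.2

theorem smb_mul {c J Z : ℕ} (h : smb c J Z = true) (n : ℕ) (hn : n * c < 512) : smb (n * c) J (n * Z) = true := by
  induction n with
  | zero => rw [zero_mul, zero_mul]; exact smb_zero _ _
  | succ n ih =>
    rw [add_mul, one_mul] at hn
    rw [add_mul, add_mul, one_mul, one_mul]
    exact smb_add hn J (ih (by omega)) h

theorem smb_sum {J : ℕ} (n c Z : ℕ → ℕ) (s : Finset ℕ) (h : ∀ b ∈ s, smb (c b) J (Z b) = true)
    (hs : ∑ b ∈ s, n b * c b < 512) : smb (∑ b ∈ s, n b * c b) J (∑ b ∈ s, n b * Z b) = true := by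
  induction s using Finset.induction_on with
  | empty => exact smb_zero _ _
  | insert x s hx ih =>
    rw [Finset.sum_insert hx] at hs
    rw [Finset.sum_insert hx, Finset.sum_insert hx]
    exact smb_add hs J (smb_mul (h x (Finset.mem_insert_self _ _)) _ (by omega))
      (ih (fun b hb => h b (Finset.mem_insert_of_mem hb)) (by omega))

theorem and_256 : ∀ x < 256, x &&& 256 = 0 := by decide +kernel

theorem smb_and {c : ℕ} (hc : c < 256) (J : ℕ) : ∀ {Z : ℕ}, smb c J Z = true → Z &&& mk J = 0 := by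
  induction J with
  | zero => exact fun _ => Nat.and_zero _
  | succ J ih =>
    intro Z h
    simp only [smb, Bool.and_eq_true, Nat.ble_eq] at h
    have h1 : (Z &&& mk (J + 1)) % 2 ^ 9 = 0 := by
      rw [Nat.and_mod_two_pow, mk, show (256 + 512 * mk J) % 2 ^ 9 = 256 by omega]
      exact and_256 _ (by omega)
    have h2 : (Z &&& mk (J + 1)) / 2 ^ 9 = 0 := by
      rw [Nat.and_div_two_pow, mk, show (256 + 512 * mk J) / 2 ^ 9 = mk J by omega]
      exact ih h.2
    omega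

/-! ### the labels -/

/-- comparison of digits -/
def dgb (b m : ℕ) : Bool :=
  Nat.ble (m % 3) (b % 3) && Nat.ble (m / 3 % 3) (b / 3 % 3) && Nat.ble (m / 9 % 3) (b / 9 % 3) &&
    Nat.ble (m / 27 % 3) (b / 27 % 3)

/-- the exponents of the weights of `V_b` -/
def wl (b : ℕ) : List ℕ := ((List.range (b + 1)).filter (dgb b)).map fun m => (2 * m + 80 - b) % 80

/-- sums over the weights of `V_b` -/
def ys (T : ℕ → ℕ) (b : ℕ) : ℕ := ((wl b).map T).sum

/-- the character of `V_b` -/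
def cb (b : ℕ) : ℕ := ys (fun θ => 512 ^ θ) b

/-- a lane -/
def ln (Z θ : ℕ) : ℕ := Z / 512 ^ θ % 512

theorem lab_chk : (List.range 81).all (fun b => Nat.ble (ys (fun _ => 1) b * OO) (ys (tb TT) b) &&
    smb (4 * ys (fun _ => 1) b) 48 (ys (tb TT) b - ys (fun _ => 1) b * OO) && smb (ys (fun _ => 1) b) 80 (cb b) &&
    (wl b).all fun θ => !Nat.beq (ln (cb b) θ) 0) = true := by
  decide +kernel

theorem lab {b : ℕ} (hb : b < 81) : ys (fun _ => 1) b * OO ≤ ys (tb TT) b ∧
    smb (4 * ys (fun _ => 1) b) 48 (ys (tb TT) b - ys (fun _ => 1) b * OO) = true ∧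
    smb (ys (fun _ => 1) b) 80 (cb b) = true ∧ ∀ θ ∈ wl b, ln (cb b) θ ≠ 0 := by
  have h := List.all_eq_true.1 lab_chk b (List.mem_range.2 hb)
  simp only [Bool.and_eq_true, Nat.ble_eq, List.all_eq_true, Bool.not_eq_true', ← Bool.not_eq_true, Nat.beq_eq] at h
  exact ⟨h.1.1.1, h.1.1.2, h.1.2, h.2⟩

theorem MK_eq : MK = mk 48 := by decide +kernel

/-! ### the certificates -/

/-- the scalar product with the digits of `c` -/
noncomputable def dp (r : List ℕ) : ℕ → ℕ :=
  List.rec (fun _ => 0) (fun a _ ih c => Nat.add (Nat.mul a (Nat.mod c 64)) (ih (Nat.div c 64))) r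

/-- the digits -/
def dg (c j : ℕ) : ℕ := c / 64 ^ j % 64

theorem dp7 {r : List ℕ} (h : r.length = 7) (c : ℕ) : dp r c = r.getD 0 0 * dg c 0 + r.getD 1 0 * dg c 1 +
    r.getD 2 0 * dg c 2 + r.getD 3 0 * dg c 3 + r.getD 4 0 * dg c 4 + r.getD 5 0 * dg c 5 + r.getD 6 0 * dg c 6 := by
  match r, h with
  | [x0, x1, x2, x3, x4, x5, x6], _ =>
    show x0 * (c % 64) + (x1 * (c / 64 % 64) + (x2 * (c / 64 / 64 % 64) + (x3 * (c / 64 / 64 / 64 % 64) +
      (x4 * (c / 64 / 64 / 64 / 64 % 64) + (x5 * (c / 64 / 64 / 64 / 64 / 64 % 64) +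
      (x6 * (c / 64 / 64 / 64 / 64 / 64 / 64 % 64) + 0)))))) =
      x0 * dg c 0 + x1 * dg c 1 + x2 * dg c 2 + x3 * dg c 3 + x4 * dg c 4 + x5 * dg c 5 + x6 * dg c 6
    simp only [dg, Nat.div_div_eq_div_mul, pow_succ, pow_zero, one_mul, Nat.div_one, add_zero, add_assoc]

/-- the exponent of a weight -/
noncomputable def ee (c : ℕ) (r : List ℕ) : ℕ := 2 * dp r c + dp [78, 77, 76, 74, 75, 76, 77] c

/-- the exponent of a weight -/
noncomputable def em (c : ℕ) (r : List ℕ) : ℕ := ee c r % 80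

/-- the value of a cocharacter -/
noncomputable def ff (k : ℕ) (x : List ℕ × ℕ) : ℕ := dp x.1 k + x.2

/-- a table -/
def tab (L : List (ℕ × ℕ)) : ℕ := L.foldr (fun x a => Nat.lor a (Nat.shiftLeft x.2 (12 * x.1))) 0

/-- an entry of a table -/
def gg (T e : ℕ) : ℕ := Nat.land (Nat.shiftRight T (12 * e)) 4095

/-- the keys with different values -/
def bd (L : List (ℕ × ℕ)) : List ℕ := (L.filter fun x => !Nat.beq (gg (tab L) x.1) x.2).map Prod.fst

/-- the exponents on which the cocharacter is not constant -/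
noncomputable def bad (c k : ℕ) : List ℕ := bd (RH.map fun x => (em c x.1, ff k x))

theorem bad_ok {c k : ℕ} {x y : List ℕ × ℕ} (hx : x ∈ RH) (hy : y ∈ RH) (h : em c x.1 = em c y.1)
    (h0 : em c x.1 ∉ bad c k) : ff k x = ff k y := by
  have key : ∀ z ∈ RH, em c z.1 ∉ bad c k → gg (tab (RH.map fun x => (em c x.1, ff k x))) (em c z.1) = ff k z := by
    intro z hz h1
    by_contra h2
    refine h1 (List.mem_map.2 ⟨(em c z.1, ff k z), List.mem_filter.2 ⟨List.mem_map.2 ⟨z, hz, rfl⟩, ?_⟩, rfl⟩)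
    rw [Bool.not_eq_true', ← Bool.not_eq_true, Nat.beq_eq]
    exact h2
  rw [← key x hx h0, ← key y hy (h ▸ h0), h]

/-- the cocharacter is not zero -/
def nz (k : ℕ) : Bool := (List.range 7).any fun j => !Nat.beq (dg k j) 32

/-- the character -/
noncomputable def cn (m c : ℕ) : ℕ := (RH.map fun x => 512 ^ (m * em c x.1 % 80)).sum

/-- the characters of the simple modules -/
def CB : List ℕ := (List.range 81).map cb

/-- the top bits -/
def M80 : ℕ := mk 80

/-- certificates of the first kind -/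
noncomputable def c1 (x : ℕ × ℕ) : Bool := nz x.2 && (bad x.1 x.2).isEmpty

/-- the test for a label -/
noncomputable def c3 (C : ℕ) (L : List (List ℕ)) (Z : ℕ) : Bool :=
  !(Nat.ble Z C && Nat.beq (Nat.land (C - Z) M80) 0) || L.any fun B => B.all fun θ => Nat.beq (ln Z θ) 0

/-- certificates of the second kind -/
noncomputable def c2 (x : ℕ × List ℕ) : Bool :=
  !Nat.beq (cn 1 x.1) (cn 9 x.1) && x.2.all nz && CB.all (c3 (cn 1 x.1) (x.2.map (bad x.1)))

theorem c1a : CT1a.all c1 = true := by decide +kernel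
theorem c1b : CT1b.all c1 = true := by decide +kernel
theorem c1c : CT1c.all c1 = true := by decide +kernel
theorem c1d : CT1d.all c1 = true := by decide +kernel
theorem c2a : CT2.all c2 = true := by decide +kernel

theorem mem_ok {α : Type} {c : ℕ} {L : List (ℕ × α)} (h : mem c L = true) : ∃ x ∈ L, x.1 = c := by
  induction L with
  | nil => exact absurd h Bool.false_ne_true
  | cons x L ih =>
    have h1 : (Bool.rec (mem c L) true (Nat.beq x.1 c) : Bool) = true := h
    by_cases e : x.1 = c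
    · exact ⟨x, List.mem_cons_self, e⟩
    · rw [Bool.eq_false_iff.2 fun h2 => e (Nat.eq_of_beq_eq_true h2)] at h1
      obtain ⟨y, hy, h2⟩ := ih h1
      exact ⟨y, List.mem_cons_of_mem _ hy, h2⟩

/-- **the certificates** -/
theorem crt {c : ℕ} (h : sv c = true) : c = 0 ∨ (∃ k, nz k = true ∧ bad c k = []) ∨ (cn 1 c ≠ cn 9 c ∧
    ∀ b < 81, cb b ≤ cn 1 c → (cn 1 c - cb b) &&& mk 80 = 0 → ∃ k, nz k = true ∧ ∀ θ ∈ bad c k, ln (cb b) θ = 0) := by
  have key : ∀ {L : List (ℕ × ℕ)}, L.all c1 = true → mem c L = true → ∃ k, nz k = true ∧ bad c k = [] := by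
    intro L h1 h2
    obtain ⟨x, hx, rfl⟩ := mem_ok h2
    have h3 := List.all_eq_true.1 h1 x hx
    rw [c1, Bool.and_eq_true, List.isEmpty_iff] at h3
    exact ⟨_, h3⟩
  simp only [sv, Bool.or_eq_true, Nat.beq_eq] at h
  rcases h with ((((h | h) | h) | h) | h) | h
  · exact Or.inl h
  · exact Or.inr (Or.inl (key c1a h))
  · exact Or.inr (Or.inl (key c1b h))
  · exact Or.inr (Or.inl (key c1c h))
  · exact Or.inr (Or.inl (key c1d h))
  · obtain ⟨x, hx, rfl⟩ := mem_ok h
    have h3 := List.all_eq_true.1 c2a x hx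
    rw [c2, Bool.and_eq_true, Bool.and_eq_true, Bool.not_eq_true', ← Bool.not_eq_true, Nat.beq_eq, List.all_eq_true,
      List.all_eq_true] at h3
    refine Or.inr (Or.inr ⟨h3.1.1, fun b hb h4 h5 => ?_⟩)
    have h6 := h3.2 (cb b) (List.mem_map.2 ⟨b, List.mem_range.2 hb, rfl⟩)
    rw [c3, Bool.or_eq_true, Bool.not_eq_true', ← Bool.not_eq_true, Bool.and_eq_true, Nat.ble_eq, Nat.beq_eq, Nat.land_eq,
      M80, List.any_eq_true] at h6
    obtain ⟨B, hB, h7⟩ := h6.resolve_left fun h7 => h7 ⟨h4, h5⟩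
    obtain ⟨k, hk, rfl⟩ := List.mem_map.1 hB
    exact ⟨k, h3.1.2 k hk, fun θ hθ => Nat.eq_of_beq_eq_true (List.all_eq_true.1 h7 θ hθ)⟩

/-! ### the result -/

/-- all slices -/
def slA : List (ℕ × ℕ) := sl0 ++ sl1 ++ sl2 ++ sl3 ++ sl4 ++ sl5 ++ sl6 ++ sl7 ++ sl8 ++ sl9 ++ sl10 ++ sl11 ++ sl12 ++
  sl13 ++ sl14 ++ sl15

theorem sl_chk : ((List.range 21).all fun a => (List.range 21).all fun b =>
    Nat.blt 20 (a + b) || slA.any fun x => Nat.beq x.1 a && Nat.beq x.2 b) = true := by decide +kernel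

theorem sl_all {a b : ℕ} (h : a + b ≤ 20) : (a, b) ∈ slA := by
  have h1 := List.all_eq_true.1 (List.all_eq_true.1 sl_chk a (List.mem_range.2 (by omega))) b (List.mem_range.2 (by omega))
  rw [Bool.or_eq_true, Nat.blt_eq, List.any_eq_true] at h1
  obtain ⟨⟨x, y⟩, h2, h3⟩ := h1.resolve_left (by omega)
  rw [Bool.and_eq_true, Nat.beq_eq, Nat.beq_eq] at h3
  rwa [← h3.1, ← h3.2]

theorem ch_all {a b : ℕ} (h : a + b ≤ 20) : ch (a, b) = true := by
  refine List.all_eq_true.1 ?_ _ (sl_all h)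
  simp only [slA, List.all_append, run0, run1, run2, run3, run4, run5, run6, run7, run8, run9, run10, run11, run12, run13,
    run14, run15, Bool.and_self]

/-- the opposite weight -/
def opp (r : List ℕ) : List ℕ := List.zipWith (· - ·) [2, 3, 4, 6, 5, 4, 3] r

theorem RH_perm : (RH.map Prod.fst).Perm (([2, 3, 4, 6, 5, 4, 3] :: RQ) ++ ([2, 3, 4, 6, 5, 4, 3] :: RQ).map opp) := by
  decide +kernel

theorem RQ_opp : ∀ r ∈ [2, 3, 4, 6, 5, 4, 3] :: RQ, r.length = 7 ∧ (opp r).length = 7 ∧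
    ∀ j < 7, r.getD j 0 + (opp r).getD j 0 = [2, 3, 4, 6, 5, 4, 3].getD j 0 := by decide +kernel

theorem RQ_last : ∀ r ∈ RQ, r.length = 7 ∧ r.getD 6 0 = 2 := by decide +kernel

theorem dp_cc (c : ℕ) : dp [78, 77, 76, 74, 75, 76, 77] c =
    78 * dg c 0 + 77 * dg c 1 + 76 * dg c 2 + 74 * dg c 3 + 75 * dg c 4 + 76 * dg c 5 + 77 * dg c 6 := dp7 rfl c

theorem ee_opp {r : List ℕ} (hr : r ∈ [2, 3, 4, 6, 5, 4, 3] :: RQ) (c : ℕ) : (ee c (opp r) + ee c r) % 80 = 0 := by
  obtain ⟨h1, h2, h3⟩ := RQ_opp r hr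
  have key : ∀ j < 7, r.getD j 0 * dg c j + (opp r).getD j 0 * dg c j = [2, 3, 4, 6, 5, 4, 3].getD j 0 * dg c j :=
    fun j hj => by rw [← add_mul, h3 j hj]
  have e0 : _ = 2 * dg c 0 := key 0 (by omega)
  have e1 : _ = 3 * dg c 1 := key 1 (by omega)
  have e2 : _ = 4 * dg c 2 := key 2 (by omega)
  have e3 : _ = 6 * dg c 3 := key 3 (by omega)
  have e4 : _ = 5 * dg c 4 := key 4 (by omega)
  have e5 : _ = 4 * dg c 5 := key 5 (by omega)
  have e6 : _ = 3 * dg c 6 := key 6 (by omega)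
  rw [ee, ee, dp7 h1, dp7 h2, dp_cc]
  omega

theorem sum_half (c : ℕ) : (RH.map fun x => tb TT (em c x.1)).sum =
    2 * ((RQ.map fun r => tb TT (em c r)).sum + tb TT (em c [2, 3, 4, 6, 5, 4, 3])) := by
  have h1 := (RH_perm.map fun r => tb TT (em c r)).sum_eq
  rw [List.map_map, List.map_append, List.sum_append, List.map_map, List.map_congr_left (l := _ :: RQ)
    (f := (fun r => tb TT (em c r)) ∘ opp) (g := fun r => tb TT (em c r)) fun r hr => tb_neg (ee_opp hr c),
    List.map_cons, List.sum_cons] at h1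
  exact h1.trans (by ring)

theorem sum_split (n Z : ℕ → ℕ) {s : Finset ℕ} {d : ℕ} (hd : d ∈ s) (hd0 : n d ≠ 0) :
    ∑ b ∈ s, n b * Z b = Z d + ∑ b ∈ s, Function.update n d (n d - 1) b * Z b := by
  rw [← Finset.add_sum_erase _ (fun b => n b * Z b) hd,
    ← Finset.add_sum_erase _ (fun b => Function.update n d (n d - 1) b * Z b) hd, Function.update_self, ← add_assoc]
  congr 1
  · obtain ⟨m, hm⟩ := Nat.exists_eq_succ_of_ne_zero hd0
    rw [hm, Nat.succ_sub_one, Nat.succ_mul, add_comm]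
  · exact Finset.sum_congr rfl fun b hb => by rw [Function.update_of_ne (Finset.ne_of_mem_erase hb)]

/-- **the arithmetical statement** -/
theorem arith {c : ℕ} (hc : c < 64 ^ 7) (h0 : c ≠ 0)
    (hs : 2 * dg c 0 + 2 * dg c 1 + 3 * dg c 2 + 4 * dg c 3 + 3 * dg c 4 + 2 * dg c 5 + dg c 6 ≤ 40) {n : ℕ → ℕ}
    (hn : ∀ T : ℕ → ℕ, (RH.map fun x => T (em c x.1)).sum = ∑ b ∈ Finset.range 81, n b * ys T b) {d : ℕ} (hd : d < 81)
    (hd0 : n d ≠ 0) : ∃ (Θ : ℕ → Prop) (k : ℕ), nz k = true ∧ (∀ θ ∈ wl d, Θ θ) ∧ ((∀ θ, Θ θ) ∨ cn 1 c ≠ cn 9 c) ∧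
      ∀ x ∈ RH, ∀ y ∈ RH, em c x.1 = em c y.1 → Θ (em c x.1) → ff k x = ff k y := by
  have h56 : ∑ b ∈ Finset.range 81, n b * ys (fun _ => 1) b = 56 := by
    rw [← hn, List.map_const', List.sum_replicate]
    rfl
  have h1 : sv c = true := by
    have h2 := enum (c := dg c 2) (d := dg c 3) (e := dg c 4) (f := dg c 5) (g := dg c 6)
      (ch_all (a := dg c 0) (b := dg c 1) (by omega)) hs ?_
    · rwa [show dg c 0 + 64 * dg c 1 + dg c 2 * 4096 + dg c 3 * 262144 + dg c 4 * 16777216 + dg c 5 * 1073741824 +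
        dg c 6 * 68719476736 = c by
          unfold dg
          omega] at h2
    have h3 : ∑ b ∈ Finset.range 81, n b * (4 * ys (fun _ => 1) b) = 224 := by
      simp only [mul_left_comm _ 4, ← Finset.mul_sum, h56, Nat.reduceMul]
    have h4 := smb_sum n (fun b => 4 * ys (fun _ => 1) b) (fun b => ys (tb TT) b - ys (fun _ => 1) b * OO) (Finset.range 81)
      (fun b hb => (lab (Finset.mem_range.1 hb)).2.1) (by omega)
    have h5 := smb_and (by omega) _ h4
    have h6 : ∑ b ∈ Finset.range 81, n b * (ys (tb TT) b - ys (fun _ => 1) b * OO) =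
        (RH.map fun x => tb TT (em c x.1)).sum - O56 := by
      rw [hn, O56, ← h56, Finset.sum_mul]
      refine Nat.eq_sub_of_add_eq ?_
      rw [← Finset.sum_add_distrib]
      refine Finset.sum_congr rfl fun b hb => ?_
      rw [mul_assoc, ← mul_add, Nat.sub_add_cancel (lab (Finset.mem_range.1 hb)).1]
    rw [h6, ← MK_eq, sum_half] at h5
    refine Eq.trans ?_ h5
    have h7 : em c [2, 3, 4, 6, 5, 4, 3] =
        (2 * dg c 0 + 3 * dg c 1 + 4 * dg c 2 + 6 * dg c 3 + 5 * dg c 4 + 4 * dg c 5 + 3 * dg c 6) % 80 := by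
      have h8 : dp [2, 3, 4, 6, 5, 4, 3] c =
        2 * dg c 0 + 3 * dg c 1 + 4 * dg c 2 + 6 * dg c 3 + 5 * dg c 4 + 4 * dg c 5 + 3 * dg c 6 := dp7 rfl c
      rw [em, ee, h8, dp_cc]
      omega
    rw [h7, List.map_congr_left (g := fun r => tb TT (em c r)) fun r hr => ?_]
    rw [em, ee, dp7 (RQ_last r hr).1, (RQ_last r hr).2, dp_cc, ← Nat.add_mul_mod_self_left _ 80 (dg c 6)]
    refine congrArg (fun x => tb TT (x % 80)) ?_
    ring
  rcases crt h1 with h2 | ⟨k, h2, h3⟩ | ⟨h2, h3⟩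
  · exact absurd h2 h0
  · exact ⟨fun _ => True, k, h2, fun _ _ => trivial, Or.inl fun _ => trivial, fun x hx y hy h4 _ =>
      bad_ok hx hy h4 (by rw [h3]; exact List.not_mem_nil)⟩
  · have h4 : cn 1 c = ∑ b ∈ Finset.range 81, n b * cb b := by
      refine Eq.trans ?_ (hn fun θ => 512 ^ θ)
      simp only [cn, em, one_mul, Nat.mod_mod]
    rw [sum_split n _ (Finset.mem_range.2 hd) hd0] at h4 h56
    have h5 := smb_sum (Function.update n d (n d - 1)) (ys fun _ => 1) cb (Finset.range 81)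
      (fun b hb => (lab (Finset.mem_range.1 hb)).2.2.1) (by omega)
    obtain ⟨k, h6, h7⟩ := h3 d hd (by omega) (by
      rw [h4, Nat.add_sub_cancel_left]
      exact smb_and (by omega) _ h5)
    exact ⟨fun θ => ln (cb d) θ ≠ 0, k, h6, (lab hd).2.2.2, Or.inr h2, fun x hx y hy h8 h9 =>
      bad_ok hx hy h8 fun h10 => h9 (h7 _ h10)⟩

end Cfsg.Agent.E7P.E81
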