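import Cfsg.Agent.E7P.E81.Dat
import Mathlib.Tactic.Ring
import Mathlib.Tactic.Linarith
import Mathlib.Data.Nat.Bitwise

/-!
# S5932, E81: the enumeration of the alcove (helper30)

`ch (s₁, s₂)` runs through the points `s` of the alcove with given first two coordinates; for every point the sums of the
functionals `ψ_j` over the 56 exponents are computed in parallel (windows of the tables `TT`, `TT3`: all values of the last
coordinate at once).  `enum` : if no sum is negative then the code of `s` is in the lists `CT1`, `CT2` or zero.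
-/

set_option autoImplicit false
set_option maxRecDepth 100000
set_option maxHeartbeats 200000
set_option exponentiation.threshold 100000

namespace Cfsg.Agent.E7P.E81

/-- evaluate `n` first -/
noncomputable def frc (n : ℕ) (f : ℕ → ℕ) : ℕ := Nat.rec (f 0) (fun m _ => f (Nat.succ m)) n

theorem frc_eq (n : ℕ) (f : ℕ → ℕ) : frc n f = f n := by cases n <;> rfl

/-- a window of a table -/
noncomputable def wf (T M e : ℕ) : ℕ := frc e fun e => Nat.land (Nat.shiftRight T (Nat.mul e 432)) M

/-- the sum of the windows -/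
noncomputable def sw (M c : ℕ) : ℕ → ℕ :=
  Nat.rec (fun P => wf TT3 M (Nat.mod P 80)) (fun _ ih P => Nat.add (wf TT M (Nat.mod P 80)) (ih (Nat.div P 5120))) c

/-- membership in the list of keys -/
noncomputable def mem {α : Type} (c : ℕ) (L : List (ℕ × α)) : Bool :=
  List.rec false (fun x _ ih => Bool.rec ih true (Nat.beq x.1 c)) L

/-- the survivors -/
noncomputable def sv (c : ℕ) : Bool :=
  Nat.beq c 0 || mem c CT1a || mem c CT1b || mem c CT1c || mem c CT1d || mem c CT2

/-- all lanes -/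
def DM : ℕ := 2 ^ 432 - 1

/-- the offsets of the 56 weights -/
def O56 : ℕ := 56 * OO

/-- `x = 0` implies `y` -/
noncomputable def tz (x : ℕ) (y : Bool) : Bool := Bool.rec true y (Nat.beq x 0)

/-- the test of a leaf -/
noncomputable def tst (G c : ℕ) : Bool := tz (Nat.land (Nat.sub (Nat.land G DM) O56) MK) (sv c)

/-- the leaves -/
noncomputable def lv (T : ℕ → ℕ → Bool) (s w n : ℕ) : ℕ → ℕ → Bool :=
  Nat.rec (fun _ _ => true) (fun _ ih G c => Bool.rec false (ih (Nat.shiftRight G s) (Nat.add c w)) (T G c)) n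

/-- the last coordinate -/
noncomputable def f7 (l P c : ℕ) : Bool :=
  lv tst 432 68719476736 (Nat.succ l) (Nat.mul 2 (sw (Nat.sub (Nat.pow 2 (Nat.mul (Nat.succ l) 432)) 1) 27 P)) c

/-- the loop over one coordinate -/
noncomputable def lo (f : ℕ → ℕ → ℕ → Bool) (θ C w l : ℕ) : ℕ → ℕ → Bool :=
  Nat.rec (motive := fun _ => ℕ → ℕ → ℕ → Bool) (fun _ _ _ => true)
    (fun _ ih l P c => Bool.rec false (ih (Nat.sub l θ) (Nat.add P C) (Nat.add c w)) (f l P c))
    (Nat.succ (Nat.div l θ)) l

/-- the coordinates 3 to 7 -/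
noncomputable def f3 : ℕ → ℕ → ℕ → Bool :=
  lo (lo (lo (lo f7 2 C6 1073741824) 3 C5 16777216) 4 C4 262144) 3 C3 4096

/-- the classes with given first two coordinates -/
noncomputable def ch (x : ℕ × ℕ) : Bool := f3 (40 - 2 * x.1 - 2 * x.2) (x.1 * C1 + x.2 * C2) (x.1 + 64 * x.2)

/-! ### soundness -/

/-- an entry of a table -/
def tb (T e : ℕ) : ℕ := T / 2 ^ (e * 432) % 2 ^ 432

/-- a window of a table -/
def wn (T e n : ℕ) : ℕ := T / 2 ^ (e * 432) % 2 ^ (n * 432)

theorem wn_succ (T e n : ℕ) : wn T e (n + 1) = tb T e + 2 ^ 432 * wn T (e + 1) n := by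
  unfold wn tb
  rw [show (n + 1) * 432 = 432 + n * 432 by ring, pow_add, Nat.mod_mul, Nat.div_div_eq_div_mul, ← pow_add,
    show e * 432 + 432 = (e + 1) * 432 by ring]

theorem wf_eq (T e n : ℕ) : wf T (2 ^ (n * 432) - 1) e = wn T e n := by
  rw [wf, frc_eq]
  show (T >>> (e * 432)) &&& (2 ^ (n * 432) - 1) = _
  rw [Nat.and_two_pow_sub_one_eq_mod, Nat.shiftRight_eq_div_pow, wn]

/-- packed vectors -/
def pk {α : Type} (f : α → ℕ) (z : ℕ) (L : List α) : ℕ := L.foldr (fun x a => f x + 5120 * a) z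

theorem pk_add {α : Type} (f g : α → ℕ) (y z c : ℕ) (L : List α) :
    pk f y L + c * pk g z L = pk (fun x => f x + c * g x) (y + c * z) L := by
  induction L with
  | nil => rfl
  | cons x L ih =>
    show f x + 5120 * pk f y L + c * (g x + 5120 * pk g z L) = f x + c * g x + 5120 * pk _ _ L
    rw [← ih]
    ring

theorem pk_zero {α : Type} (L : List α) : pk (fun _ => 0) 0 L = 0 := by
  induction L with
  | nil => rfl
  | cons x L ih =>
    show 0 + 5120 * pk _ _ L = 0
    rw [ih]

theorem sw_eq {α : Type} (M z : ℕ) (f : α → ℕ) (L : List α) (h : ∀ x ∈ L, f x < 5120) :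
    sw M L.length (pk f z L) = (L.map fun x => wf TT M (f x % 80)).sum + wf TT3 M (z % 80) := by
  induction L with
  | nil => exact (Nat.zero_add _).symm
  | cons x L ih =>
    have h1 := h x List.mem_cons_self
    show wf TT M ((f x + 5120 * pk f z L) % 80) + sw M L.length ((f x + 5120 * pk f z L) / 5120) = _
    rw [show (f x + 5120 * pk f z L) % 80 = f x % 80 by omega, show (f x + 5120 * pk f z L) / 5120 = pk f z L by omega,
      ih fun y hy => h y (List.mem_cons_of_mem _ hy), List.map_cons, List.sum_cons, add_assoc]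

theorem rec_and {a b : Bool} (h : (Bool.rec false a b : Bool) = true) : b = true ∧ a = true := by
  cases b
  · exact absurd h Bool.false_ne_true
  · exact ⟨rfl, h⟩

theorem lv_step {T : ℕ → ℕ → Bool} {s w n G c : ℕ} (h : lv T s w (n + 1) G c = true) :
    T G c = true ∧ lv T s w n (G / 2 ^ s) (c + w) = true := by
  rw [← Nat.shiftRight_eq_div_pow]
  exact rec_and h

theorem tz_ok {x : ℕ} {y : Bool} (h : tz x y = true) (h0 : x = 0) : y = true := by
  subst h0
  exact h

theorem tst_ok {G c : ℕ} (h : tst G c = true) (h0 : (G % 2 ^ 432 - O56) &&& MK = 0) : sv c = true := by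
  refine tz_ok (x := Nat.land (Nat.sub (Nat.land G DM) O56) MK) h ?_
  rw [Nat.land_eq, Nat.land_eq, Nat.sub_eq, DM, Nat.and_two_pow_sub_one_eq_mod, h0]

theorem lv_ok {X : ℕ → ℕ} {G : ℕ → ℕ → ℕ} {w : ℕ} (hX : ∀ t, X t < 2 ^ 432)
    (hG : ∀ n t, G (n + 1) t = X t + 2 ^ 432 * G n (t + 1)) (n : ℕ) :
    ∀ t0 c, lv tst 432 w n (G n t0) c = true → ∀ t < n, (X (t0 + t) - O56) &&& MK = 0 → sv (c + t * w) = true := by
  induction n with
  | zero => exact fun _ _ _ t ht => absurd ht (Nat.not_lt_zero t)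
  | succ n ih =>
    intro t0 c h t ht h0
    obtain ⟨h1, h2⟩ := lv_step h
    rcases t with _ | t
    · rw [zero_mul, add_zero]
      refine tst_ok h1 ?_
      rw [hG, Nat.add_mul_mod_self_left, Nat.mod_eq_of_lt (hX _)]
      exact h0
    · rw [hG, Nat.add_mul_div_left _ _ (Nat.two_pow_pos _), Nat.div_eq_of_lt (hX _), zero_add] at h2
      have h5 := ih (t0 + 1) _ h2 t (Nat.lt_of_succ_lt_succ ht) (by rw [add_assoc, add_comm 1]; exact h0)
      rwa [add_mul, one_mul, add_comm (t * _), ← add_assoc]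

theorem lo_ok {f : ℕ → ℕ → ℕ → Bool} {θ C w l P c : ℕ} (hθ : 0 < θ) (h : lo f θ C w l P c = true) {t : ℕ} (ht : θ * t ≤ l) :
    f (l - θ * t) (P + t * C) (c + t * w) = true := by
  have key : ∀ n l P c, Nat.rec (motive := fun _ => ℕ → ℕ → ℕ → Bool) (fun _ _ _ => true)
      (fun _ ih l P c => Bool.rec false (ih (Nat.sub l θ) (Nat.add P C) (Nat.add c w)) (f l P c)) n l P c = true →
      ∀ t < n, f (l - θ * t) (P + t * C) (c + t * w) = true := by
    intro n
    induction n with
    | zero => exact fun _ _ _ _ t ht => absurd ht (Nat.not_lt_zero t)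
    | succ n ih =>
      intro l P c h t ht
      obtain ⟨h1, h2⟩ := rec_and h
      rcases t with _ | t
      · simpa using h1
      · have h3 := ih _ _ _ h2 t (by omega)
        rwa [show Nat.sub l θ - θ * t = l - θ * (t + 1) by
            show l - θ - θ * t = _
            rw [Nat.sub_sub, mul_add, mul_one, add_comm],
          show Nat.add P C + t * C = P + (t + 1) * C by
            show P + C + t * C = _
            ring,
          show Nat.add c w + t * w = c + (t + 1) * w by
            show c + w + t * w = _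
            ring] at h3
  exact key _ _ _ _ h t (Nat.lt_succ_of_le ((Nat.le_div_iff_mul_le hθ).2 (by rw [mul_comm]; exact ht)))

theorem tb_big {T e : ℕ} (hT : T < 2 ^ (121 * 432)) (he : 121 ≤ e) : tb T e = 0 := by
  rw [tb, Nat.div_eq_of_lt (hT.trans_le (Nat.pow_le_pow_right two_pos (by omega))), Nat.zero_mod]

theorem tb_chk : (List.range 121).all (fun e => Nat.blt (56 * tb TT e) (2 ^ 432) && Nat.beq (tb TT e) (tb TT (e % 80)) &&
    Nat.beq (tb TT3 e) (tb TT (3 * e % 80)) && Nat.beq (tb TT (e % 80)) (tb TT ((80 - e % 80) % 80))) = true := by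
  decide +kernel

theorem tb_fact {e : ℕ} (he : e < 121) : 56 * tb TT e < 2 ^ 432 ∧ tb TT e = tb TT (e % 80) ∧ tb TT3 e = tb TT (3 * e % 80) ∧
    tb TT (e % 80) = tb TT ((80 - e % 80) % 80) := by
  have h := List.all_eq_true.1 tb_chk e (List.mem_range.2 he)
  simp only [Bool.and_eq_true, Nat.blt_eq, Nat.beq_eq] at h
  exact ⟨h.1.1.1, h.1.1.2, h.1.2, h.2⟩

theorem tb_lt (e : ℕ) : 56 * tb TT e < 2 ^ 432 := by
  by_cases he : e < 121
  · exact (tb_fact he).1
  · rw [tb_big (by decide +kernel) (by omega)]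
    exact Nat.two_pow_pos _

theorem tb3_lt (e : ℕ) : 56 * tb TT3 e < 2 ^ 432 := by
  by_cases he : e < 121
  · rw [(tb_fact he).2.2.1]
    exact tb_lt _
  · rw [tb_big (by decide +kernel) (by omega)]
    exact Nat.two_pow_pos _

/-- the table is even -/
theorem tb_neg {x y : ℕ} (h : (x + y) % 80 = 0) : tb TT (x % 80) = tb TT (y % 80) := by
  have h1 := (tb_fact (e := x % 80) (by omega)).2.2.2
  rw [Nat.mod_mod] at h1
  rw [h1, show (80 - x % 80) % 80 = y % 80 by omega]

theorem sum_lt {α : Type} (g : α → ℕ) {D : ℕ} (hg : ∀ x, 56 * g x < D) (L : List α) :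
    56 * (L.map g).sum + L.length ≤ L.length * D := by
  induction L with
  | nil => simp
  | cons x L ih =>
    have := hg x
    rw [List.map_cons, List.sum_cons, List.length_cons, add_mul, one_mul]
    omega

theorem sum_lin {α : Type} (f g : α → ℕ) (D : ℕ) (L : List α) :
    (L.map fun x => f x + D * g x).sum = (L.map f).sum + D * (L.map g).sum := by
  induction L with
  | nil => simp
  | cons x L ih =>
    simp only [List.map_cons, List.sum_cons, ih]
    ring

theorem f7_ok {l c z : ℕ} {f : List ℕ → ℕ} (hl : l ≤ 40) (hf : ∀ x ∈ RQ, f x < 5120) (h : f7 l (pk f z RQ) c = true) {t : ℕ}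
    (ht : t ≤ l) (h0 : (2 * ((RQ.map fun x => tb TT ((f x + t) % 80)).sum + tb TT (3 * (z + t) % 80)) - O56) &&& MK = 0) :
    sv (c + t * 68719476736) = true := by
  have h1 : f7 l (pk f z RQ) c =
      lv tst 432 68719476736 (l + 1) (2 * sw (2 ^ ((l + 1) * 432) - 1) RQ.length (pk f z RQ)) c := rfl
  rw [h1, sw_eq _ _ _ _ hf] at h
  simp only [wf_eq] at h
  refine lv_ok (X := fun t => 2 * ((RQ.map fun x => tb TT (f x % 80 + t)).sum + tb TT3 (z % 80 + t)))
    (G := fun n t => 2 * ((RQ.map fun x => wn TT (f x % 80 + t) n).sum + wn TT3 (z % 80 + t) n)) (fun t => ?_)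
    (fun n t => ?_) (l + 1) 0 c h t (by omega) ?_
  · have h2 := sum_lt (fun x => tb TT (f x % 80 + t)) (fun x => tb_lt _) RQ
    have h3 := tb3_lt (z % 80 + t)
    rw [show RQ.length = 27 from rfl] at h2
    generalize 2 ^ 432 = D at h2 h3 ⊢
    omega
  · simp only [wn_succ, sum_lin, add_assoc]
    ring
  · refine Eq.trans ?_ h0
    rw [zero_add, (tb_fact (e := z % 80 + t) (by omega)).2.2.1, show 3 * (z % 80 + t) % 80 = 3 * (z + t) % 80 by omega]
    congr 5
    refine List.map_congr_left fun x _ => ?_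
    rw [(tb_fact (e := f x % 80 + t) (by omega)).2.1, Nat.mod_add_mod]

theorem C1_eq : C1 = pk (fun r => 2 * r.getD 0 0 + 78) 54 RQ := by decide +kernel
theorem C2_eq : C2 = pk (fun r => 2 * r.getD 1 0 + 77) 1 RQ := by decide +kernel
theorem C3_eq : C3 = pk (fun r => 2 * r.getD 2 0 + 76) 28 RQ := by decide +kernel
theorem C4_eq : C4 = pk (fun r => 2 * r.getD 3 0 + 74) 2 RQ := by decide +kernel
theorem C5_eq : C5 = pk (fun r => 2 * r.getD 4 0 + 75) 55 RQ := by decide +kernel
theorem C6_eq : C6 = pk (fun r => 2 * r.getD 5 0 + 76) 28 RQ := by decide +kernel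

theorem RQ_le : ∀ r ∈ RQ, ∀ j < 6, r.getD j 0 ≤ 6 := by decide +kernel

/-- **the enumeration** -/
theorem enum {a b c d e f g : ℕ} (h : ch (a, b) = true) (hs : 2 * a + 2 * b + 3 * c + 4 * d + 3 * e + 2 * f + g ≤ 40)
    (h0 : (2 * ((RQ.map fun r => tb TT ((a * (2 * r.getD 0 0 + 78) + b * (2 * r.getD 1 0 + 77) + c * (2 * r.getD 2 0 + 76) +
      d * (2 * r.getD 3 0 + 74) + e * (2 * r.getD 4 0 + 75) + f * (2 * r.getD 5 0 + 76) + g) % 80)).sum +
      tb TT ((2 * a + 3 * b + 4 * c + 6 * d + 5 * e + 4 * f + 3 * g) % 80)) - O56) &&& MK = 0) :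
    sv (a + 64 * b + c * 4096 + d * 262144 + e * 16777216 + f * 1073741824 + g * 68719476736) = true := by
  have h3 := lo_ok (t := c) (by norm_num) h (by show _ ≤ 40 - 2 * a - 2 * b; omega)
  have h4 := lo_ok (t := d) (by norm_num) h3 (by show _ ≤ 40 - 2 * a - 2 * b - _; omega)
  have h5 := lo_ok (t := e) (by norm_num) h4 (by show _ ≤ 40 - 2 * a - 2 * b - _ - _; omega)
  have h6 := lo_ok (t := f) (by norm_num) h5 (by show _ ≤ 40 - 2 * a - 2 * b - _ - _ - _; omega)
  have h7 : f7 (40 - 2 * a - 2 * b - 3 * c - 4 * d - 3 * e - 2 * f) (a * C1 + b * C2 + c * C3 + d * C4 + e * C5 + f * C6)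
      (a + 64 * b + c * 4096 + d * 262144 + e * 16777216 + f * 1073741824) = true := h6
  rw [← zero_add (a * C1), ← pk_zero RQ, C1_eq, C2_eq, C3_eq, C4_eq, C5_eq, C6_eq, pk_add, pk_add, pk_add, pk_add, pk_add,
    pk_add] at h7
  refine f7_ok (by omega) (fun r hr => ?_) h7 (by omega) ?_
  · have e0 := Nat.mul_le_mul_left a (show 2 * r.getD 0 0 + 78 ≤ 90 by have := RQ_le r hr 0 (by omega); omega)
    have e1 := Nat.mul_le_mul_left b (show 2 * r.getD 1 0 + 77 ≤ 90 by have := RQ_le r hr 1 (by omega); omega)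
    have e2 := Nat.mul_le_mul_left c (show 2 * r.getD 2 0 + 76 ≤ 90 by have := RQ_le r hr 2 (by omega); omega)
    have e3 := Nat.mul_le_mul_left d (show 2 * r.getD 3 0 + 74 ≤ 90 by have := RQ_le r hr 3 (by omega); omega)
    have e4 := Nat.mul_le_mul_left e (show 2 * r.getD 4 0 + 75 ≤ 90 by have := RQ_le r hr 4 (by omega); omega)
    have e5 := Nat.mul_le_mul_left f (show 2 * r.getD 5 0 + 76 ≤ 90 by have := RQ_le r hr 5 (by omega); omega)
    omega
  · refine Eq.trans ?_ h0
    rw [show 3 * (0 + a * 54 + b * 1 + c * 28 + d * 2 + e * 55 + f * 28 + g) % 80 =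
      (2 * a + 3 * b + 4 * c + 6 * d + 5 * e + 4 * f + 3 * g) % 80 by omega]
    simp only [zero_add]

end Cfsg.Agent.E7P.E81
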