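import Cfsg.Agent.E7P.E81.Enu

/-!
# S5932, E81: the kernel checks, part 1 (helper30)
-/

set_option autoImplicit false
set_option maxRecDepth 100000
set_option Elab.async false

namespace Cfsg.Agent.E7P.E81

/-- a slice -/
def sl0 : List (ℕ × ℕ) :=
  [(0,0), (0,10), (9,1), (9,3), (11,2), (13,1), (0,16), (9,7), (8,9), (7,11), (4,15), (13,6), (5,15), (16,4)]

theorem run0 : sl0.all ch = true := by decide +kernel

/-- a slice -/
def sl1 : List (ℕ × ℕ) :=
  [(0,1), (3,5), (4,5), (10,0), (11,1), (0,14), (14,0), (1,15), (10,6), (17,0), (2,17), (7,12), (19,0)]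

theorem run1 : sl1.all ch = true := by decide +kernel

/-- a slice -/
def sl2 : List (ℕ × ℕ) :=
  [(1,0), (4,4), (5,4), (0,11), (11,0), (12,1), (0,15), (10,5), (0,17), (9,8), (12,6), (14,5), (6,14), (17,3)]

theorem run2 : sl2.all ch = true := by decide +kernel

/-- a slice -/
def sl3 : List (ℕ × ℕ) :=
  [(0,2), (5,1), (8,0), (1,10), (0,12), (0,13), (1,13), (1,14), (11,4), (2,15), (11,6), (14,4), (16,3), (19,1)]

theorem run3 : sl3.all ch = true := by decide +kernel

/-- a slice -/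
def sl4 : List (ℕ × ℕ) :=
  [(1,1), (6,0), (0,9), (4,6), (9,2), (1,12), (2,12), (2,13), (2,14), (11,5), (0,18), (5,13), (16,2), (8,12), (20,0)]

theorem run4 : sl4.all ch = true := by decide +kernel

/-- a slice -/
def sl5 : List (ℕ × ℕ) :=
  [(2,0), (0,7), (5,3), (2,8), (7,4), (10,2), (13,0), (7,8), (7,9), (1,16), (10,7), (13,5), (15,4), (9,11)]

theorem run5 : sl5.all ch = true := by decide +kernel

/-- a slice -/
def sl6 : List (ℕ × ℕ) :=
  [(0,3), (1,5), (7,0), (1,9), (6,5), (5,7), (6,7), (7,7), (8,7), (8,8), (3,14), (12,5), (15,3), (7,13), (18,2)]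

theorem run6 : sl6.all ch = true := by decide +kernel

/-- a slice -/
def sl7 : List (ℕ × ℕ) :=
  [(1,2), (2,4), (0,8), (1,8), (6,4), (6,6), (8,5), (10,4), (13,2), (5,12), (14,3), (18,0)]

theorem run7 : sl7.all ch = true := by decide +kernel

end Cfsg.Agent.E7P.E81
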